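import Cfsg.Agent.H852.IMPerm
import Cfsg.Agent.H497.EB.Low
import Cfsg.Agent.H610.EB.DRed
import Cfsg.Agent.H684.EB.Base

/-!
# TEAM EB: 4-transitive groups (helper273)

* `four_irr` : the characters `chA = (π - 1)(π - 2)/2 - ...` (alternating square of `π - 1`) and `chB` (2-sets minus
  points) of a 4-transitive group are irreducible.
* `concl_of_four` : if `G` acts on `X`, `N` is 4-transitive on `X` and `n (n - 3) / 2` is even, the conclusion of S4522.
-/

set_option autoImplicit false
set_option linter.unusedSectionVars false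

open Cfsg

namespace Cfsg.Agent.H273.EB

open Cfsg.Agent.Characters.Core Cfsg.Agent.H852.IMPerm Cfsg.Agent.H610.EB Cfsg.Agent.H694
open scoped ComplexConjugate

section four

variable {G : Type*} [Group G] (X : Type*) [MulAction G X]

/-- the alternating square of `π - 1` -/
noncomputable def chA (g : G) : ℂ := ((fx X g : ℂ) * (fx X g : ℂ) - 3 * (fx X g : ℂ) + 2 - (nn X g : ℂ)) / 2

/-- the 2-sets minus the points -/
noncomputable def chB (g : G) : ℂ := ((fx X g : ℂ) * (fx X g : ℂ) - 3 * (fx X g : ℂ) + (nn X g : ℂ)) / 2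

variable [Finite X] [Fintype G]

theorem four_irr [MulAction.IsMultiplyPretransitive G X 4] (hX : 4 ≤ Nat.card X) :
    IsIrrCharacter G (chA (G := G) X) ∧ IsIrrCharacter G (chB (G := G) X) ∧
      chB X (1 : G) = ((Nat.card X * (Nat.card X - 3) / 2 : ℕ) : ℂ) := by
  have h3 : MulAction.IsMultiplyPretransitive G X 3 := MulAction.isMultiplyPretransitive_of_le (n := 4) (by norm_num) hX
  have h2 : MulAction.IsMultiplyPretransitive G X 2 := MulAction.isMultiplyPretransitive_of_le (n := 4) (by norm_num) hX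
  have h1 : MulAction.IsMultiplyPretransitive G X 1 := MulAction.isMultiplyPretransitive_of_le (n := 4) (by norm_num) hX
  have ht : MulAction.IsPretransitive G X := by
    rw [← MulAction.is_one_pretransitive_iff]
    exact h1
  set P : G → ℂ := fun g => (fx X g : ℂ) with hP
  set T : G → ℂ := fun g => (nn X g : ℂ) with hT
  have a1 : avg (fun g => P g) = 1 := by
    have := avg_desc (G := G) X 1 (by omega)
    simpa using this
  have a2 : avg (fun g => P g * (P g - 1)) = 1 := by
    have := avg_desc (G := G) X 2 (by omega)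
    simp only [cast_desc_two] at this
    exact this
  have a3 : avg (fun g => P g * (P g - 1) * (P g - 2)) = 1 := by
    have := avg_desc (G := G) X 3 (by omega)
    simp only [cast_desc_three] at this
    exact this
  have a4 : avg (fun g => P g * (P g - 1) * (P g - 2) * (P g - 3)) = 1 := by
    have := avg_desc (G := G) X 4 (by omega)
    simp only [cast_desc_four] at this
    exact this
  have b1 : avg (fun g => T g) = 1 := avg_nn X (by omega)
  have b2 : avg (fun g => P g * T g) = 1 := avg_fx_nn X (by omega)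
  have a0 : avg (fun _ : G => (1 : ℂ)) = 1 := avg_one
  have hχ : IsIrrCharacter G (fun g => P g - 1) := (Cfsg.Agent.S0157.result X (by omega)).2 h2
  have hsq : ∀ g, P (g * g) = P g + T g := by
    intro g
    rw [hP, hT]
    simp only [fx_sq, Nat.cast_add]
  set A : G → ℂ := fun g => (P g * P g - 3 * P g + 2 - T g) / 2 with hA
  set S : G → ℂ := fun g => (P g * P g - P g + T g) / 2 with hS
  have hAc : IsCharacter G A := by
    have := Cfsg.Agent.PermChar.SymAlt.isCharacter_altSq (isIrr_isCharacter hχ)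
    convert this using 1
    funext g
    rw [hA]
    simp only [hsq]
    ring
  have hSc : IsCharacter G S := by
    have := Cfsg.Agent.PermChar.SymAlt.isCharacter_symSq (isIrr_isCharacter hχ)
    convert this using 1
    funext g
    rw [hS]
    simp only [hsq]
    ring
  have hPr : ∀ g, conj (P g) = P g := fun g => Complex.conj_natCast _
  have hTr : ∀ g, conj (T g) = T g := fun g => Complex.conj_natCast _
  have hAr : ∀ g, conj (A g) = A g := by
    intro g
    rw [hA]
    simp only [map_div₀, map_sub, map_add, map_mul, hPr, hTr, map_ofNat]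
  have hSr : ∀ g, conj (S g) = S g := by
    intro g
    rw [hS]
    simp only [map_div₀, map_sub, map_add, map_mul, hPr, hTr, map_ofNat]
  -- averages
  have cA : avg (fun g => A g) = 0 := by
    have h : (fun g => A g) = fun g => (1 / 2 : ℂ) * (P g * (P g - 1) - 2 * P g + 2 * 1 - T g) := by
      funext g
      rw [hA]
      ring
    rw [h, avg_mul, avg_sub, avg_add, avg_sub, avg_mul, avg_mul, a0, a1, a2, b1]
    norm_num
  have cAP : avg (fun g => A g * P g) = 0 := by
    have h : (fun g => A g * P g) = fun g => (1 / 2 : ℂ) * (P g * (P g - 1) * (P g - 2) - P g * T g) := by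
      funext g
      rw [hA]
      ring
    rw [h, avg_mul, avg_sub, a3, b2]
    norm_num
  have cN : avg (fun g => (P g * P g - 3 * P g + 1) * (P g * P g - 3 * P g + 1)) = 2 := by
    have h : (fun g => (P g * P g - 3 * P g + 1) * (P g * P g - 3 * P g + 1)) =
        fun g => P g * (P g - 1) * (P g - 2) * (P g - 3) + 1 := by
      funext g
      ring
    rw [h, avg_add, a0, a4]
    norm_num
  set B : G → ℂ := S - P with hB
  have hBr : ∀ g, conj (B g) = B g := by
    intro g
    rw [hB, Pi.sub_apply, map_sub, hSr, hPr]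
  have hAB : classInner (A + B) (A + B) = 2 := by
    rw [inner_eq_avg _ _ (fun g => by rw [Pi.add_apply, map_add, hAr, hBr])]
    rw [← cN]
    congr 1
    funext g
    have h : A g + B g = P g * P g - 3 * P g + 1 := by
      rw [hB, hA, hS, Pi.sub_apply]
      ring
    rw [Pi.add_apply, h]
  have hAP : classInner A P = 0 := by
    rw [inner_eq_avg _ _ hPr]
    exact cAP
  obtain ⟨a, ha⟩ := classInner_isNat hAc hAc
  obtain ⟨c, hc⟩ := classInner_isNat hAc hSc
  have hABc : classInner A B = c := by
    rw [hB, classInner_sub_right, hAP, hc, sub_zero]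
  have hBAc : classInner B A = c := by
    rw [← classInner_conj_symm, hABc, Complex.conj_natCast]
  have hBB : classInner B B = 2 - a - 2 * c := by
    rw [classInner_add_left, classInner_add_right, classInner_add_right, ha, hABc, hBAc] at hAB
    linear_combination hAB
  -- degrees
  have hP1 : P 1 = (Nat.card X : ℂ) := by
    show ((fx X (1 : G) : ℕ) : ℂ) = _
    rw [fx, MulAction.fixedBy_one_eq_univ, Nat.card_univ]
  have hT1 : T 1 = 0 := by
    have h4 := hsq 1
    rw [one_mul] at h4
    linear_combination -h4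
  have hA1 : A 1 = (((Nat.card X - 1) * (Nat.card X - 2) / 2 : ℕ) : ℂ) := by
    have h4 : (Nat.card X - 1) * (Nat.card X - 2) / 2 * 2 = (Nat.card X - 1) * (Nat.card X - 2) := by
      refine Nat.div_mul_cancel (even_iff_two_dvd.1 ?_)
      obtain ⟨m, hm⟩ : ∃ m, Nat.card X = m + 2 := ⟨Nat.card X - 2, by omega⟩
      rw [hm, show m + 2 - 1 = m + 1 by omega, show m + 2 - 2 = m by omega, mul_comm]
      exact Nat.even_mul_succ_self m
    have h5 : ((((Nat.card X - 1) * (Nat.card X - 2) / 2 : ℕ) : ℂ)) * 2 = ((Nat.card X : ℂ) - 1) * ((Nat.card X : ℂ) - 2) := by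
      have h6 : ((((Nat.card X - 1) * (Nat.card X - 2) / 2 * 2 : ℕ) : ℂ)) = (((Nat.card X - 1) * (Nat.card X - 2) : ℕ) : ℂ) := by
        rw [h4]
      rw [Nat.cast_mul, Nat.cast_mul, Nat.cast_sub (by omega), Nat.cast_sub (by omega)] at h6
      exact_mod_cast h6
    have h6 : A 1 = (P 1 * P 1 - 3 * P 1 + 2 - T 1) / 2 := rfl
    rw [h6, hP1, hT1]
    linear_combination (-1 / 2 : ℂ) * h5
  have hB1 : B 1 = ((Nat.card X * (Nat.card X - 3) / 2 : ℕ) : ℂ) := by
    have h4 : Nat.card X * (Nat.card X - 3) / 2 * 2 = Nat.card X * (Nat.card X - 3) := by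
      refine Nat.div_mul_cancel (even_iff_two_dvd.1 ?_)
      obtain ⟨m, hm⟩ : ∃ m, Nat.card X = m + 3 := ⟨Nat.card X - 3, by omega⟩
      rw [hm, show m + 3 - 3 = m by omega, Nat.even_mul]
      rcases Nat.even_or_odd m with h | h
      · exact Or.inr h
      · exact Or.inl (h.add_odd (by decide))
    have h5 : (((Nat.card X * (Nat.card X - 3) / 2 : ℕ) : ℂ)) * 2 = (Nat.card X : ℂ) * ((Nat.card X : ℂ) - 3) := by
      have h6 : (((Nat.card X * (Nat.card X - 3) / 2 * 2 : ℕ) : ℂ)) = ((Nat.card X * (Nat.card X - 3) : ℕ) : ℂ) := by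
        rw [h4]
      rw [Nat.cast_mul, Nat.cast_mul, Nat.cast_sub (by omega)] at h6
      exact_mod_cast h6
    have h6 : B 1 = (P 1 * P 1 - P 1 + T 1) / 2 - P 1 := rfl
    rw [h6, hP1, hT1]
    linear_combination (-1 / 2 : ℂ) * h5
  have hA0 : A 1 ≠ 0 := by
    rw [hA1]
    have h4 : 1 ≤ (Nat.card X - 1) * (Nat.card X - 2) / 2 := by
      have h5 : 3 * 2 ≤ (Nat.card X - 1) * (Nat.card X - 2) := Nat.mul_le_mul (by omega) (by omega)
      omega
    exact_mod_cast (by omega : (Nat.card X - 1) * (Nat.card X - 2) / 2 ≠ 0)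
  have hB0n : 1 ≤ Nat.card X * (Nat.card X - 3) / 2 := by
    have h5 : 4 * 1 ≤ Nat.card X * (Nat.card X - 3) := Nat.mul_le_mul (by omega) (by omega)
    omega
  have hB0 : B 1 ≠ 0 := by
    rw [hB1]
    exact_mod_cast (by omega : Nat.card X * (Nat.card X - 3) / 2 ≠ 0)
  have ha0 : a ≠ 0 := by
    rintro rfl
    have h4 := classInner_self_eq_zero (φ := A) (by rw [ha]; simp)
    exact hA0 (by rw [h4]; rfl)
  have hpos : 0 < (2 : ℝ) - a - 2 * c := by
    have h4 := classInner_self_eq_ofReal B
    rw [hBB] at h4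
    have h5 : (2 : ℝ) - a - 2 * c = (Nat.card G : ℝ)⁻¹ * ∑ g : G, Complex.normSq (B g) := by exact_mod_cast h4
    rw [h5]
    refine mul_pos (inv_pos.2 (by exact_mod_cast Nat.card_pos)) ?_
    refine Finset.sum_pos' (fun g _ => Complex.normSq_nonneg _) ⟨1, Finset.mem_univ _, ?_⟩
    exact Complex.normSq_pos.2 hB0
  have hac : a + 2 * c < 2 := by
    have : ((a + 2 * c : ℕ) : ℝ) < (2 : ℕ) := by push_cast; linarith
    exact_mod_cast this
  have ha1 : a = 1 := by omega
  have hc0 : c = 0 := by omega
  have hAi : IsIrrCharacter G A := isIrr_of_classInner_self hAc (by rw [ha, ha1]; simp)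
  have hBn : classInner B B = 1 := by
    rw [hBB, ha1, hc0]
    norm_num
  have hBi : IsIrrCharacter G B := by
    rcases isIrr_of_generalized ⟨S, P, hSc, Cfsg.Agent.S0157.isCharacter_fixedBy X, rfl⟩ hBn with h | h
    · exact h
    · exfalso
      obtain ⟨m, hm, hm1⟩ := isIrr_apply_one h
      have h4 : (((m + Nat.card X * (Nat.card X - 3) / 2 : ℕ)) : ℂ) = ((0 : ℕ) : ℂ) := by
        rw [Nat.cast_add, ← hm1, ← hB1, Pi.neg_apply, Nat.cast_zero]
        exact neg_add_cancel (B 1)
      have h5 : m + Nat.card X * (Nat.card X - 3) / 2 = 0 := by exact_mod_cast h4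
      omega
  have hBe : B = chB X := by
    funext g
    show (P g * P g - P g + T g) / 2 - P g = (P g * P g - 3 * P g + T g) / 2
    ring
  rw [← hBe]
  exact ⟨hAi, hBi, hB1⟩

end four

section block

variable {G : Type*} [Group G] [Fintype G] {X : Type*} [MulAction G X] [Finite X]

/-- Elements of odd order have no 2-cycles. -/
theorem nn_eq_zero {g : G} (hg : IsPRegular 2 g) : nn X g = 0 := by
  rw [nn, Nat.card_eq_zero]
  left
  constructor
  rintro ⟨x, h1, h2⟩
  apply h2
  have h3 : Odd (orderOf g) := Nat.not_even_iff_odd.1 fun h => hg (even_iff_two_dvd.1 h)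
  have h4 : ∀ m : ℕ, (g * g) ^ m • x = x := by
    intro m
    induction m with
    | zero => rw [pow_zero, one_smul]
    | succ m ih => rw [pow_succ, mul_smul, mul_smul, h1, ih]
  obtain ⟨m, hm⟩ := h3
  have h5 : (g * g) ^ (m + 1) = g := by
    rw [← pow_two, ← pow_mul, show 2 * (m + 1) = (2 * m + 1) + 1 by ring, ← hm, pow_succ,
      pow_orderOf_eq_one, one_mul]
  have h6 := h4 (m + 1)
  rwa [h5] at h6

/-- The characters of a 4-transitive group in the principal block. -/
theorem chB_mem {M : Ideal AlgInt} (hM : IsPModular 2 M) [MulAction.IsMultiplyPretransitive G X 4]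
    (hX : 4 ≤ Nat.card X) :
    (⟨chB X, (four_irr (G := G) X hX).2.1⟩ : IrrCharacter G) ∈ principalBlock M G := by
  have hprime : M.IsPrime := Blocks.Local.isPrime_of_isPModular hM
  obtain ⟨hA, hB, -⟩ := four_irr (G := G) X hX
  have key : ∀ s : G, IsPRegular 2 s → chA X s = chB X s + 1 := by
    intro s hs
    rw [chA, chB, nn_eq_zero hs]
    push_cast
    ring
  have h1 : SameBlock M (chA X : G → ℂ) (fun _ => 1) :=
    H497.EB.sameBlock_of_reg hM ⟨chA X, hA⟩ ⟨fun _ => 1, Blocks.Basic.isIrrCharacter_one⟩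
      (isIrr_isCharacter hB) fun s hs => by
        show chA X s = 1 + chB X s
        rw [key s hs, add_comm]
  have h2 : SameBlock M (chA X : G → ℂ) (chB X) :=
    H497.EB.sameBlock_of_reg hM ⟨chA X, hA⟩ ⟨chB X, hB⟩
      (isIrr_isCharacter Blocks.Basic.isIrrCharacter_one) fun s hs => key s hs
  exact Blocks.Basic.sameBlock_trans (Blocks.Basic.sameBlock_symm h1) h2

theorem chB_pow {k : ℕ} (hk : IsK G k) (g : G) : chB X (g ^ k) = chB X g := by
  have h1 : ∀ t : G, fx X (t ^ k) = fx X t := by
    intro t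
    rw [fx, fx, fixedBy_pow hk]
  have h2 := fx_sq X (g ^ k)
  have h3 := fx_sq X g
  have h4 : g ^ k * g ^ k = (g * g) ^ k := by
    rw [(Commute.refl g).mul_pow]
  rw [h4, h1, h1, h3] at h2
  have h5 : nn X (g ^ k) = nn X g := by omega
  rw [chB, chB, h1, h5]

end block

universe u v

/-- **The conclusion for 4-transitive groups.** -/
theorem concl_of_four {G : Type u} [Group G] [Fintype G] {M : Ideal AlgInt} (hM : IsPModular 2 M)
    {X : Type v} [MulAction G X] [Finite X] (N : Subgroup G) [Fintype N]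
    (h4 : MulAction.IsMultiplyPretransitive N X 4) (hX : 4 ≤ Nat.card X)
    (heven : Even (Nat.card X * (Nat.card X - 3) / 2)) {k : ℕ} (hk : IsK G k) : Concl M G N k := by
  have h4G : MulAction.IsMultiplyPretransitive G X 4 := by
    rw [MulAction.isMultiplyPretransitive_iff] at h4 ⊢
    intro x y
    obtain ⟨g, hg⟩ := h4 (x := x) (y := y)
    exact ⟨(g : G), hg⟩
  obtain ⟨-, hB, hB1⟩ := four_irr (G := G) X hX
  obtain ⟨-, hBN, hBN1⟩ := four_irr (G := N) X hX
  refine ⟨⟨chB X, hB⟩, chB_mem hM hX, ?_, chB_pow hk, ?_⟩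
  · have h1 := Blocks.Basic.irr_one_eq_charDegree hB
    rw [hB1] at h1
    have h2 : Nat.card X * (Nat.card X - 3) / 2 = charDegree (chB X : G → ℂ) := by exact_mod_cast h1
    show Even (charDegree (chB X : G → ℂ))
    rw [← h2]
    exact heven
  · show classInner (fun s : N => chB X (s : G)) (fun _ => (1 : ℂ)) = 0
    have h1 : (fun s : N => chB X (s : G)) = chB (G := N) X := rfl
    rw [h1]
    apply classInner_irr_ne hBN Blocks.Basic.isIrrCharacter_one
    intro h2
    have h3 := congrFun h2 1
    rw [hBN1] at h3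
    have h5 : Nat.card X * (Nat.card X - 3) / 2 = 1 := by exact_mod_cast h3
    rw [h5] at heven
    exact absurd heven (by decide)

end Cfsg.Agent.H273.EB
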