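import Cfsg.Agent.H273.EB.Four

/-!
# TEAM EB: the conclusion from the class of point stabilizers (helper273)

`N` normal in `G`, `N` acts 4-transitively on `X` and conjugation by `G` permutes the point stabilizers.
-/

set_option autoImplicit false
set_option linter.unusedSectionVars false
set_option linter.style.haveILetI false

open Cfsg

namespace Cfsg.Agent.H273.EB

open Cfsg.Agent.H610.EB Cfsg.Agent.H694

universe u v

/-- the class of point stabilizers -/
def stabs (S : Type*) [Group S] (X : Type*) [MulAction S X] : Set (Subgroup S) :=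
  Set.range fun x : X => MulAction.stabilizer S x

theorem stabs_conj {S : Type*} [Group S] {X : Type*} [MulAction S X] (g : S) :
    ∀ H ∈ stabs S X, H.map (MulAut.conj g).toMonoidHom ∈ stabs S X := by
  rintro _ ⟨x, rfl⟩
  exact ⟨g • x, MulAction.stabilizer_smul_eq_stabilizer_map_conj g x⟩

/-- point stabilizers of a 2-transitive action are distinct -/
theorem stab_inj {S : Type*} [Group S] {X : Type*} [MulAction S X] [Finite X]
    (h2 : MulAction.IsMultiplyPretransitive S X 2) (hX : 3 ≤ Nat.card X) {x y : X}
    (h : MulAction.stabilizer S x = MulAction.stabilizer S y) : x = y := by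
  by_contra hxy
  classical
  haveI := Fintype.ofFinite X
  obtain ⟨z, hz⟩ : ∃ z : X, z ∉ ({x, y} : Finset X) := by
    by_contra hcon
    push Not at hcon
    have h3 : (Finset.univ : Finset X) ⊆ {x, y} := fun z _ => hcon z
    have h4 := Finset.card_le_card h3
    rw [Finset.card_univ, ← Nat.card_eq_fintype_card] at h4
    have h5 := Finset.card_le_two (a := x) (b := y)
    omega
  simp only [Finset.mem_insert, Finset.mem_singleton, not_or] at hz
  obtain ⟨g, hg1, hg2⟩ := MulAction.is_two_pretransitive_iff.1 h2 hxy (Ne.symm hz.1)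
  have h3 : g ∈ MulAction.stabilizer S y := by
    rw [← h]
    exact hg1
  exact hz.2 (hg2.symm.trans h3)

/-- points and stabilizers -/
noncomputable def stabEquiv {S : Type*} [Group S] {X : Type*} [MulAction S X] [Finite X]
    (h2 : MulAction.IsMultiplyPretransitive S X 2) (hX : 3 ≤ Nat.card X) : X ≃ stabs S X :=
  Equiv.ofBijective (fun x => ⟨MulAction.stabilizer S x, x, rfl⟩)
    ⟨fun _ _ h => stab_inj h2 hX (congrArg Subtype.val h), fun ⟨_, x, hx⟩ => ⟨x, Subtype.ext hx⟩⟩

/-- transitivity on the class of stabilizers -/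
theorem stabs_trans {S : Type*} [Group S] {X : Type*} [MulAction S X] [Finite X] {k : ℕ}
    (hk : MulAction.IsMultiplyPretransitive S X k)
    (h2 : MulAction.IsMultiplyPretransitive S X 2) (hX : 3 ≤ Nat.card X) :
    ∀ x y : Fin k ↪ stabs S X, ∃ g : S, ∀ i,
      (x i : Subgroup S).map (MulAut.conj g).toMonoidHom = (y i : Subgroup S) := by
  intro x y
  let e := stabEquiv h2 hX
  obtain ⟨g, hg⟩ := (MulAction.isMultiplyPretransitive_iff.1 hk)
    (x := x.trans e.symm.toEmbedding) (y := y.trans e.symm.toEmbedding)
  refine ⟨g, fun i => ?_⟩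
  have h1 : g • e.symm (x i) = e.symm (y i) := DFunLike.congr_fun hg i
  have h3 : ∀ H : stabs S X, (H : Subgroup S) = MulAction.stabilizer S (e.symm H) := by
    intro H
    have h4 := congrArg Subtype.val (e.apply_symm_apply H)
    exact h4.symm
  rw [h3 (x i), h3 (y i), ← h1]
  exact (MulAction.stabilizer_smul_eq_stabilizer_map_conj g _).symm

/-- **The conclusion for a normal 4-transitive subgroup whose class of point stabilizers is stable.** -/
theorem concl_of_stabs {G : Type u} [Group G] [Fintype G] {M : Ideal AlgInt} (hM : IsPModular 2 M)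
    (N : Subgroup G) [N.Normal] [Fintype N] {X : Type v} [MulAction N X] [Finite X]
    (h4 : MulAction.IsMultiplyPretransitive N X 4) (hX : 4 ≤ Nat.card X)
    (heven : Even (Nat.card X * (Nat.card X - 3) / 2))
    (hst : ∀ g : G, ∀ H ∈ stabs N X, cmap N g H ∈ stabs N X)
    {k : ℕ} (hk : IsK G k) : Concl M G N k := by
  have h2 : MulAction.IsMultiplyPretransitive N X 2 :=
    MulAction.isMultiplyPretransitive_of_le (n := 4) (by norm_num) hX
  let e := stabEquiv h2 (by omega)
  have hc : Nat.card (stabs N X) = Nat.card X := (Nat.card_congr e).symm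
  letI := actSet N (stabs N X) hst
  haveI : Finite (stabs N X) := Finite.of_equiv X e
  refine concl_of_four hM (X := stabs N X) N ?_ (by rw [hc]; exact hX) (by rw [hc]; exact heven) hk
  rw [MulAction.isMultiplyPretransitive_iff]
  intro x y
  obtain ⟨g, hg⟩ := stabs_trans h4 h2 (by omega) x y
  refine ⟨g, ?_⟩
  ext i : 1
  apply Subtype.ext
  show cmap N (g : G) (x i : Subgroup N) = (y i : Subgroup N)
  rw [cmap_coe]
  exact hg i

end Cfsg.Agent.H273.EB
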